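import Cfsg.Agent.H308.CA.Stmts

/-!
# The group of star ring automorphisms preserving `SU` and its action on `SU`
-/

set_option autoImplicit false

namespace Cfsg.Agent.H683.CA

open Matrix Cfsg.Agent.H308.CA

variable {ι : Type} [Fintype ι] [DecidableEq ι] {E : Type} [CommRing E] [StarRing E]

/-- conjugation by a unitary matrix -/
def inn (U : Matrix ι ι E) (h1 : star U * U = 1) : RingAut (Matrix ι ι E) :=
  { toFun := fun a => U * a * star U
    invFun := fun a => star U * a * U
    left_inv := fun a => by
      change star U * (U * a * star U) * U = a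
      calc star U * (U * a * star U) * U = (star U * U) * a * (star U * U) := by
            simp only [mul_assoc]
        _ = a := by rw [h1, one_mul, mul_one]
    right_inv := fun a => by
      have h2 : U * star U = 1 := mul_eq_one_comm.1 h1
      change U * (star U * a * U) * star U = a
      calc U * (star U * a * U) * star U = (U * star U) * a * (U * star U) := by
            simp only [mul_assoc]
        _ = a := by rw [h2, one_mul, mul_one]
    map_mul' := fun a b => by
      calc U * (a * b) * star U = U * a * 1 * b * star U := by simp only [mul_one, mul_assoc]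
        _ = U * a * (star U * U) * b * star U := by rw [h1]
        _ = (U * a * star U) * (U * b * star U) := by simp only [mul_assoc]
    map_add' := fun a b => by rw [mul_add, add_mul] }

theorem inn_apply (U : Matrix ι ι E) (h1 : star U * U = 1) (a : Matrix ι ι E) :
    inn U h1 a = U * a * star U := rfl

theorem inn_inv_apply (U : Matrix ι ι E) (h1 : star U * U = 1) (a : Matrix ι ι E) :
    (inn U h1)⁻¹ a = star U * a * U := rfl

/-- star ring automorphisms preserving `SU` -/
def SA (ι : Type) [Fintype ι] [DecidableEq ι] (E : Type) [CommRing E] [StarRing E] :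
    Subgroup (RingAut (Matrix ι ι E)) where
  carrier := {θ | (∀ a, θ (star a) = star (θ a)) ∧ (∀ u : SU ι E, (θ (mt u)).det = 1) ∧
    ∀ u : SU ι E, (θ⁻¹ (mt u)).det = 1}
  one_mem' := ⟨fun _ => rfl, fun u => mt_det u, fun u => mt_det u⟩
  mul_mem' := by
    rintro θ τ ⟨h1, h2, h3⟩ ⟨k1, k2, k3⟩
    have hi : ∀ θ : RingAut (Matrix ι ι E), (∀ a, θ (star a) = star (θ a)) →
        ∀ a, θ⁻¹ (star a) = star (θ⁻¹ a) := by
      intro θ h a
      apply θ.injective
      change θ (θ.symm (star a)) = θ (star (θ.symm a))
      rw [h, RingEquiv.apply_symm_apply, RingEquiv.apply_symm_apply]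
    have hu : ∀ θ : RingAut (Matrix ι ι E), (∀ a, θ (star a) = star (θ a)) → ∀ u : SU ι E,
        star (θ (mt u)) * θ (mt u) = 1 := by
      intro θ h u
      rw [← h, ← map_mul, star_mt_mul, map_one]
    refine ⟨fun a => ?_, fun u => ?_, fun u => ?_⟩
    · change θ (τ (star a)) = star (θ (τ a))
      rw [k1, h1]
    · exact h2 (mkSU (τ (mt u)) (hu τ k1 u) (k2 u))
    · have : ((θ * τ)⁻¹) (mt u) = τ⁻¹ (θ⁻¹ (mt u)) := by rw [_root_.mul_inv_rev]; rfl
      rw [this]
      exact k3 (mkSU (θ⁻¹ (mt u)) (hu θ⁻¹ (hi θ h1) u) (h3 u))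
  inv_mem' := by
    rintro θ ⟨h1, h2, h3⟩
    refine ⟨fun a => ?_, h3, fun u => ?_⟩
    · apply θ.injective
      change θ (θ.symm (star a)) = θ (star (θ.symm a))
      rw [h1, RingEquiv.apply_symm_apply, RingEquiv.apply_symm_apply]
    · rw [inv_inv]
      exact h2 u

theorem SA.star {θ : RingAut (Matrix ι ι E)} (h : θ ∈ SA ι E) (a : Matrix ι ι E) :
    θ (star a) = star (θ a) := h.1 a

/-- the action on `SU` -/
def actFun (θ : SA ι E) (u : SU ι E) : SU ι E :=
  mkSU (θ.1 (mt u)) (by rw [← SA.star θ.2, ← map_mul, star_mt_mul, map_one]) (θ.2.2.1 u)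

theorem mt_actFun (θ : SA ι E) (u : SU ι E) : mt (actFun θ u) = θ.1 (mt u) := rfl

/-- the action on `SU` -/
def act : SA ι E →* MulAut (SU ι E) where
  toFun θ :=
    { toFun := actFun θ
      invFun := actFun θ⁻¹
      left_inv := fun u => by
        apply mt_injective
        change θ.1.symm (θ.1 (mt u)) = mt u
        rw [RingEquiv.symm_apply_apply]
      right_inv := fun u => by
        apply mt_injective
        change θ.1 (θ.1.symm (mt u)) = mt u
        rw [RingEquiv.apply_symm_apply]
      map_mul' := fun u v => by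
        apply mt_injective
        rw [map_mul, mt_actFun, mt_actFun, mt_actFun, map_mul, map_mul] }
  map_one' := by
    apply MulEquiv.ext
    intro u
    apply mt_injective
    rfl
  map_mul' θ τ := by
    apply MulEquiv.ext
    intro u
    apply mt_injective
    rfl

theorem mt_act (θ : SA ι E) (u : SU ι E) : mt (act θ u) = θ.1 (mt u) := rfl

theorem inn_mem_SA (U : Matrix ι ι E) (h1 : star U * U = 1) : inn U h1 ∈ SA ι E := by
  have h2 : U * star U = 1 := mul_eq_one_comm.1 h1
  have hd1 : U.det * (star U).det = 1 := by rw [← det_mul, h2, det_one]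
  refine ⟨fun a => ?_, fun u => ?_, fun u => ?_⟩
  · rw [inn_apply, inn_apply, star_mul, star_mul, star_star, mul_assoc]
  · rw [inn_apply, det_mul, det_mul, mt_det, mul_one, hd1]
  · rw [inn_inv_apply, det_mul, det_mul, mt_det, mul_one, mul_comm, hd1]

/-- a ring automorphism of the coefficients commuting with `star` -/
theorem map_mem_SA (τ : RingAut E) (h : ∀ a, τ (star a) = star (τ a)) :
    (RingEquiv.mapMatrix τ : RingAut (Matrix ι ι E)) ∈ SA ι E := by
  have h' : ∀ a, τ.symm (star a) = star (τ.symm a) := by
    intro a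
    apply τ.injective
    rw [h, RingEquiv.apply_symm_apply, RingEquiv.apply_symm_apply]
  refine ⟨fun a => ?_, fun u => ?_, fun u => ?_⟩
  · ext i j
    change τ (star (a j i)) = star (τ (a j i))
    exact h _
  · have := RingHom.map_det (τ : E →+* E) (mt u)
    change (((τ : E →+* E).mapMatrix (mt u))).det = 1
    rw [← this, mt_det, map_one]
  · have := RingHom.map_det (τ.symm : E →+* E) (mt u)
    change ((((τ.symm : E ≃+* E) : E →+* E).mapMatrix (mt u))).det = 1
    rw [← this, mt_det, map_one]

end Cfsg.Agent.H683.CA
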